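import Cfsg.Agent.Lib.Helper46.BSW0
import Cfsg.Agent.Lib.Helper4.CharExp2
import Cfsg.Agent.Lib.Helper35.Abel

/-!
# Piece IND of S3282 (Brauer–Suzuki–Wall): T.I. induction from an inverted abelian subgroup
-/

set_option autoImplicit false

namespace Cfsg.Agent.Lib.Helper35.BSWInd

open Cfsg Cfsg.Agent.Lib Cfsg.Agent.Lib.Helper35 Cfsg.Agent.Lib.Helper46.BSW
open scoped ComplexConjugate

universe u

variable {G : Type u} [Group G] [Fintype G]

/-- the value on `X ∖ {1}` of a function induced from the abelian T.I. subgroup `X` inverted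
by `w` -/
theorem ind_val (X : Subgroup G) (hab : ∀ a ∈ X, ∀ b ∈ X, a * b = b * a) (w : G)
    (hw : ∀ x ∈ X, w * x * w⁻¹ = x⁻¹) (hwX : w ∉ X)
    (hTI : ∀ g : G, ∀ x ∈ X, x ≠ 1 → g * x * g⁻¹ ∈ X → g ∈ X ∨ g * w⁻¹ ∈ X)
    (θ : X → ℂ) (x : X) (hx : x ≠ 1) : indFun X θ x = θ x + θ x⁻¹ := by
  classical
  let _ : Fintype X := Fintype.ofFinite X
  have hX : (Nat.card X : ℂ) ≠ 0 := by exact_mod_cast (Nat.card_pos (α := X)).ne'
  have hx1 : (x : G) ≠ 1 := fun h => hx (Subtype.ext h)
  have hterm : ∀ y : G, extendByZero X θ (y⁻¹ * (x : G) * y) =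
      extendByZero X (fun _ => θ x) y + extendByZero X (fun _ => θ x⁻¹) (y⁻¹ * w⁻¹) := by
    intro y
    by_cases hy : y ∈ X
    · have h1 : y⁻¹ * (x : G) * y = x := by
        rw [mul_assoc, hab x x.2 y hy, ← mul_assoc, inv_mul_cancel, one_mul]
      have h2 : y⁻¹ * w⁻¹ ∉ X := by
        intro h
        apply hwX
        have e : w⁻¹ = y * (y⁻¹ * w⁻¹) := by group
        have hw' : w⁻¹ ∈ X := by
          rw [e]
          exact X.mul_mem hy h
        simpa using X.inv_mem hw'
      rw [h1, ext_mem X θ x x.2, ext_mem X _ y hy, ext_not_mem X _ _ h2, add_zero]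
    · by_cases hy2 : y⁻¹ * w⁻¹ ∈ X
      · have h1 : y⁻¹ * (x : G) * y = (x : G)⁻¹ := by
          have e1 : y⁻¹ * (x : G) * y = (y⁻¹ * w⁻¹) * (w * x * w⁻¹) * (y⁻¹ * w⁻¹)⁻¹ := by group
          rw [e1, hw x x.2, hab _ hy2 _ (X.inv_mem x.2), mul_inv_cancel_right]
        rw [h1, ext_mem X θ _ (X.inv_mem x.2), ext_not_mem X _ y hy, ext_mem X _ _ hy2, zero_add]
        rfl
      · have h1 : y⁻¹ * (x : G) * y ∉ X := by
          intro h
          have h2 := hTI y⁻¹ x x.2 hx1 (by rw [inv_inv]; exact h)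
          rcases h2 with h2 | h2
          · exact hy (by simpa using X.inv_mem h2)
          · exact hy2 h2
        rw [ext_not_mem X θ _ h1, ext_not_mem X _ y hy, ext_not_mem X _ _ hy2, add_zero]
  have hconst : ∀ a : ℂ, ∑ y : G, extendByZero X (fun _ => a) y = (Nat.card X : ℂ) * a := by
    intro a
    have h := sum_ext_mul X (fun _ => a) (fun _ => (1 : ℂ))
    simp only [mul_one] at h
    rw [h, Finset.sum_const, Finset.card_univ, nsmul_eq_mul, Nat.card_eq_fintype_card]
  have hs2 : ∑ y : G, extendByZero X (fun _ => θ x⁻¹) (y⁻¹ * w⁻¹) =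
      (Nat.card X : ℂ) * θ x⁻¹ := by
    rw [← hconst]
    exact Equiv.sum_comp ((Equiv.inv G).trans (Equiv.mulRight w⁻¹))
      (fun y => extendByZero X (fun _ => θ x⁻¹) y)
  show (Nat.card X : ℂ)⁻¹ * ∑ y : G, extendByZero X θ (y⁻¹ * (x : G) * y) = _
  simp only [hterm, Finset.sum_add_distrib, hconst, hs2]
  field_simp

theorem cbar_ne (X : Type u) [Group X] [Finite X] (l : IrrCharacter X)
    (hl : l ≠ Helper4.trivIrr) : cbar l ≠ Helper4.trivIrr := by
  intro h
  apply hl
  apply Subtype.ext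
  funext x
  have h1 : (cbar l : X → ℂ) x = 1 := by rw [h]; rfl
  rw [cbar_apply] at h1
  have h2 := congrArg conj h1
  rw [Complex.conj_conj, map_one] at h2
  rw [h2]
  rfl

theorem cbar_invol (X : Type u) [Group X] [Finite X] (l : IrrCharacter X) : cbar (cbar l) = l := by
  apply Subtype.ext
  funext x
  show conj (conj ((l : X → ℂ) x)) = _
  rw [Complex.conj_conj]

set_option maxHeartbeats 800000 in
theorem main (X : Subgroup G) [Fintype (IrrCharacter X)] [Fintype (IrrCharacter G)]
    (hab : ∀ a ∈ X, ∀ b ∈ X, a * b = b * a) (w : G)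
    (hw : ∀ x ∈ X, w * x * w⁻¹ = x⁻¹) (hwX : w ∉ X)
    (hTI : ∀ g : G, ∀ x ∈ X, x ≠ 1 → g * x * g⁻¹ ∈ X → g ∈ X ∨ g * w⁻¹ ∈ X) :
    ∃ c : IrrCharacter X → IrrCharacter G → ℤ, IndData X c := by
  classical
  let _ : Fintype X := Fintype.ofFinite X
  have habX : ∀ a b : X, a * b = b * a := fun a b => Subtype.ext (hab a a.2 b b.2)
  have hl1 : ∀ l : IrrCharacter X, (l : X → ℂ) 1 = 1 := fun l => irr_one_of_comm habX l
  have h1X : IsIrrCharacter X (fun _ => (1 : ℂ)) := Helper4.isIrrCharacter_one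
  have h1G : IsIrrCharacter G (fun _ => (1 : ℂ)) := Helper4.isIrrCharacter_one
  have hXne : (Nat.card X : ℂ) ≠ 0 := by exact_mod_cast (Nat.card_pos (α := X)).ne'
  have hgen : ∀ l : IrrCharacter X,
      IsGeneralizedCharacter G (indFun X (fun x => 1 - (l : X → ℂ) x)) := by
    intro l
    apply isGenChar_indFun
    exact isGenChar_sub (isGenChar_of_char (isChar_of_irr h1X))
      (isGenChar_of_char (isChar_of_irr l.2))
  choose c hc using fun l => gen_decomp (hgen l)
  have hcin : ∀ l χ, ((c l χ : ℤ) : ℂ) =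
      classInner (indFun X (fun x => 1 - (l : X → ℂ) x)) (χ : G → ℂ) := by
    intro l χ
    conv_rhs => rw [hc l]
    exact (Helper4.classInner_sum_irr (fun χ => ((c l χ : ℤ) : ℂ)) χ).symm
  have hval : ∀ l (g : G), ∑ χ : IrrCharacter G, ((c l χ : ℤ) : ℂ) * (χ : G → ℂ) g =
      indFun X (fun x => 1 - (l : X → ℂ) x) g := by
    intro l g
    conv_rhs => rw [hc l]
    simp only [Finset.sum_apply, Pi.smul_apply, smul_eq_mul]
  -- inner products on `X`
  have i11 : classInner (fun _ : X => (1 : ℂ)) (fun _ => 1) = 1 := by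
    rw [classInner_irr' h1X h1X, if_pos rfl]
  have il1 : ∀ l : IrrCharacter X, l ≠ Helper4.trivIrr →
      classInner (l : X → ℂ) (fun _ => 1) = 0 := by
    intro l hl
    rw [classInner_irr' l.2 h1X, if_neg]
    exact fun h => hl (Subtype.ext h)
  have i1l : ∀ l : IrrCharacter X, l ≠ Helper4.trivIrr →
      classInner (fun _ : X => (1 : ℂ)) (l : X → ℂ) = 0 := by
    intro l hl
    rw [classInner_irr' h1X l.2, if_neg]
    exact fun h => hl (Subtype.ext h.symm)
  have ill : ∀ l l' : IrrCharacter X,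
      classInner (l : X → ℂ) (l' : X → ℂ) = if l = l' then 1 else 0 := by
    intro l l'
    rw [classInner_irr' l.2 l'.2]
    by_cases h : l = l'
    · rw [if_pos h, if_pos (congrArg Subtype.val h)]
    · rw [if_neg h, if_neg (fun h' => h (Subtype.ext h'))]
  -- the Gram matrix
  have hgram : ∀ l l' : IrrCharacter X, l ≠ Helper4.trivIrr → l' ≠ Helper4.trivIrr →
      ∑ χ, c l χ * c l' χ = 2 + (if l' = l then 1 else 0) + (if l' = cbar l then 1 else 0) := by
    intro l l' hl hl'
    have h1 := classInner_int_decomp (c l) (c l')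
    rw [← hc l, ← hc l', frobenius_reciprocity X _ _ (isClassFunction_indFun X _)] at h1
    have h2 : classInner (fun x : X => 1 - (l : X → ℂ) x)
        (res X (indFun X (fun x => 1 - (l' : X → ℂ) x))) =
        classInner (fun x : X => 1 - (l : X → ℂ) x)
          ((2 : ℂ) • (fun _ : X => (1 : ℂ)) - (l' : X → ℂ) - (cbar l' : X → ℂ)) := by
      unfold classInner
      congr 1
      refine Finset.sum_congr rfl fun x _ => ?_
      show (1 - (l : X → ℂ) x) * conj (res X (indFun X (fun x => 1 - (l' : X → ℂ) x)) x) =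
        (1 - (l : X → ℂ) x) * conj (((2 : ℂ) • (fun _ : X => (1 : ℂ)) - (l' : X → ℂ) -
          (cbar l' : X → ℂ)) x)
      by_cases hx : x = 1
      · rw [hx, hl1 l, sub_self, zero_mul, zero_mul]
      · rw [res_apply, ind_val X hab w hw hwX hTI _ x hx, Helper4.irr_inv l' x]
        simp only [Pi.sub_apply, Pi.smul_apply, smul_eq_mul, mul_one, cbar_apply]
        congr 2
        ring
    rw [h2] at h1
    have h3 : (fun x : X => 1 - (l : X → ℂ) x) = (fun _ : X => (1 : ℂ)) - (l : X → ℂ) := rfl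
    rw [h3, classInner_sub_left, classInner_sub_right, classInner_sub_right,
      classInner_sub_right, classInner_sub_right, classInner_smul_right, classInner_smul_right,
      i11, i1l l' hl', il1 l hl, ill l l', ill l (cbar l'),
      classInner_irr' h1X (cbar l').2, if_neg (fun h => cbar_ne X l' hl' (Subtype.ext h.symm))] at h1
    have c2 : (starRingEnd ℂ) (2 : ℂ) = 2 := map_ofNat _ 2
    rw [c2] at h1
    apply Int.cast_injective (α := ℂ)
    rw [← h1]
    have e1 : (l = cbar l') ↔ (l' = cbar l) := by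
      constructor
      · intro h
        rw [h, cbar_invol]
      · intro h
        rw [h, cbar_invol]
    have e2 : (l = l') ↔ (l' = l) := eq_comm
    simp only [e1, e2]
    push_cast
    split_ifs <;> ring
  refine ⟨c, ⟨?_, ?_, ?_, ?_, ?_, ?_⟩⟩
  · -- triv_row
    intro χ
    have h1 := hcin Helper4.trivIrr χ
    have h2 : (fun x : X => 1 - ((Helper4.trivIrr : IrrCharacter X) : X → ℂ) x) = 0 := by
      funext x
      show (1 : ℂ) - 1 = 0
      ring
    rw [h2, indFun_zero, classInner_zero_left] at h1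
    exact_mod_cast h1
  · -- triv_col
    intro l hl
    have h1 := hcin l Helper4.trivIrr
    have hcf : IsClassFunction G ((Helper4.trivIrr : IrrCharacter G) : G → ℂ) := fun _ _ => rfl
    rw [frobenius_reciprocity X _ _ hcf] at h1
    have h2 : res X ((Helper4.trivIrr : IrrCharacter G) : G → ℂ) = fun _ => 1 := rfl
    have h3 : (fun x : X => 1 - (l : X → ℂ) x) = (fun _ : X => (1 : ℂ)) - (l : X → ℂ) := rfl
    rw [h2, h3, classInner_sub_left, i11, il1 l hl, sub_zero] at h1
    exact_mod_cast h1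
  · -- gram
    intro l l' hl hl'
    convert hgram l l' hl hl'
  · -- bar
    intro l
    by_cases hl : l = Helper4.trivIrr
    · have : cbar l = l := by
        rw [hl]
        apply Subtype.ext
        funext x
        show conj (1 : ℂ) = 1
        simp
      rw [this]
    · have hl' := cbar_ne X l hl
      have g1 := hgram l l hl hl
      have g2 := hgram l (cbar l) hl hl'
      have g3 := hgram (cbar l) (cbar l) hl' hl'
      rw [cbar_invol] at g3
      have hsum : ∑ χ, (c (cbar l) χ - c l χ) ^ 2 = 0 := by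
        have e : ∀ χ, (c (cbar l) χ - c l χ) ^ 2 =
            c (cbar l) χ * c (cbar l) χ - 2 * (c l χ * c (cbar l) χ) + c l χ * c l χ := by
          intro χ
          ring
        simp only [e, Finset.sum_add_distrib, Finset.sum_sub_distrib, ← Finset.mul_sum]
        rw [g1, g2, g3]
        by_cases hh : cbar l = l
        · simp [hh]
        · have hh' : ¬ l = cbar l := fun h => hh h.symm
          simp [hh, hh']
      funext χ
      have h0 := (Finset.sum_eq_zero_iff_of_nonneg
        (fun χ _ => sq_nonneg (c (cbar l) χ - c l χ))).mp hsum χ (Finset.mem_univ χ)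
      have h1 : c (cbar l) χ - c l χ = 0 := pow_eq_zero_iff (n := 2) (by norm_num) |>.mp h0
      linarith
  · -- vanish
    intro l g hg
    have h1 : ∑ χ : IrrCharacter G, ((c l χ : ℤ) : ℂ) * (χ : G → ℂ) g =
        indFun X (fun x => 1 - (l : X → ℂ) x) g := hval l g
    rw [h1]
    show (Nat.card X : ℂ)⁻¹ * ∑ y : G, extendByZero X (fun x => 1 - (l : X → ℂ) x) (y⁻¹ * g * y) = 0
    rw [Finset.sum_eq_zero, mul_zero]
    intro y _
    rcases hg with hg | hg
    · rw [hg]
      have e : y⁻¹ * 1 * y = ((1 : X) : G) := by simp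
      rw [e, ext_coe, hl1 l, sub_self]
    · apply ext_not_mem
      have := hg y⁻¹
      rwa [inv_inv] at this
  · -- fourier
    intro χ x hx
    obtain ⟨m, hm⟩ := Helper4.exists_decomp_of_isCharacter (res X (χ : G → ℂ))
      (isCharacter_res X (isChar_of_irr χ.2))
    have hm1 : ∀ l : IrrCharacter X, classInner (l : X → ℂ) (res X (χ : G → ℂ)) = (m l : ℂ) := by
      intro l
      rw [Helper4.classInner_conj_symm, hm, Helper4.classInner_sum_irr]
      simp
    have hcm : ∀ l : IrrCharacter X, ((c l χ : ℤ) : ℂ) = (m Helper4.trivIrr : ℂ) - (m l : ℂ) := by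
      intro l
      rw [hcin l χ, frobenius_reciprocity X _ _ (isClassFunction_of_isCharacter (isChar_of_irr χ.2))]
      have h3 : (fun x : X => 1 - (l : X → ℂ) x) = (fun _ : X => (1 : ℂ)) - (l : X → ℂ) := rfl
      rw [h3, classInner_sub_left, hm1 l]
      congr 1
      exact hm1 Helper4.trivIrr
    have hsum0 : ∑ l : IrrCharacter X, (l : X → ℂ) x = 0 := by
      have h := Helper4.col_orth (G := X) x 1
      have e : ∀ l : IrrCharacter X, (l : X → ℂ) x * conj ((l : X → ℂ) 1) = (l : X → ℂ) x := by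
        intro l
        rw [hl1 l, map_one, mul_one]
      simp only [e] at h
      rw [h, if_neg]
      intro hc'
      exact hx (isConj_one_left.mp hc')
    have hχx : (χ : G → ℂ) x = ∑ l : IrrCharacter X, (m l : ℂ) * (l : X → ℂ) x := by
      have := congrFun hm x
      rw [res_apply] at this
      rw [this]
      simp only [Finset.sum_apply, Pi.smul_apply, smul_eq_mul]
    rw [hχx]
    have e : ∀ l : IrrCharacter X, (m l : ℂ) * (l : X → ℂ) x =
        (m Helper4.trivIrr : ℂ) * (l : X → ℂ) x - ((c l χ : ℤ) : ℂ) * (l : X → ℂ) x := by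
      intro l
      rw [hcm l]
      ring
    simp only [e, Finset.sum_sub_distrib, ← Finset.mul_sum, hsum0, mul_zero, zero_sub]

end Cfsg.Agent.Lib.Helper35.BSWInd

namespace Cfsg.Agent.Lib.Helper46.BSW

open Cfsg Cfsg.Agent.Lib.Helper4

universe u

variable {G : Type u} [Group G]

theorem indData_exists [Fintype G] (X : Subgroup G) [Fintype (IrrCharacter X)]
    [Fintype (IrrCharacter G)] (hab : ∀ a ∈ X, ∀ b ∈ X, a * b = b * a) (w : G)
    (hw : ∀ x ∈ X, w * x * w⁻¹ = x⁻¹) (hwX : w ∉ X)
    (hTI : ∀ g : G, ∀ x ∈ X, x ≠ 1 → g * x * g⁻¹ ∈ X → g ∈ X ∨ g * w⁻¹ ∈ X) :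
    ∃ c : IrrCharacter X → IrrCharacter G → ℤ, IndData X c :=
  Cfsg.Agent.Lib.Helper35.BSWInd.main X hab w hw hwX hTI

end Cfsg.Agent.Lib.Helper46.BSW
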