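import Mathlib
import Cfsg.Agent.Lib.Helper10.BT0
import Cfsg.Agent.Lib.Helper35.Ind

/-!
# Brauer–Reynolds Theorem 1 (S4700), piece BT-T3 (helper35): configuration (I) forces
`n = 1`, `t = 2` (port of `BR.config_I_false_of` to `GTab`).
-/

set_option autoImplicit false

namespace Cfsg.Agent.Lib.Helper10.BT

open Cfsg
open Cfsg.Agent.Lib.Helper83 (trivIrr)
open Cfsg.Agent.Lib.Helper10.BR (psum DOut Tab)
open scoped ComplexConjugate

namespace BTT3aux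

/-- the arithmetic core -/
theorem arith (p e t n a b y d : ℕ) (he : 2 ≤ e) (ht : 2 ≤ t) (hn : 1 ≤ n)
    (het : e * t = p - 1) (hp2 : 2 ≤ p)
    (h1 : e * p = p + a * ((n + 1) * p) + p * d)
    (h2 : e * e = 1 + a * (1 + n * p) + b * (p - 1) + y * e + p * d) : n = 1 ∧ t = 2 := by
  have hp1 : 1 ≤ p := by omega
  have hppos : 0 < p := by omega
  have h1' : e = 1 + a * (n + 1) + d := by
    have : e * p = (1 + a * (n + 1) + d) * p := by rw [h1]; ring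
    exact Nat.eq_of_mul_eq_mul_right hppos this
  zify [hp1] at h2 het
  have h1z : (e : ℤ) = 1 + a * (n + 1) + d := by exact_mod_cast h1'
  have hez : (2 : ℤ) ≤ e := by exact_mod_cast he
  have htz : (2 : ℤ) ≤ t := by exact_mod_cast ht
  have hnz : (1 : ℤ) ≤ n := by exact_mod_cast hn
  have ha0 : (0 : ℤ) ≤ a := Int.natCast_nonneg a
  have hb0 : (0 : ℤ) ≤ b := Int.natCast_nonneg b
  have hy0 : (0 : ℤ) ≤ y := Int.natCast_nonneg y
  have hd0 : (0 : ℤ) ≤ d := Int.natCast_nonneg d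
  have hpz : (p : ℤ) = e * t + 1 := by linarith
  have hbb : (0 : ℤ) ≤ b * ((p : ℤ) - 1) :=
    mul_nonneg hb0 (by linarith [mul_nonneg (by linarith : (0:ℤ) ≤ e) (by linarith : (0:ℤ) ≤ t)])
  have hyy : (0 : ℤ) ≤ y * e := mul_nonneg hy0 (by linarith)
  have key : (e : ℤ) * ((a : ℤ) * t - (e - 1) * (t - 1)) = b * ((p : ℤ) - 1) + y * e := by
    linear_combination h2 - (p : ℤ) * h1z + ((e : ℤ) - 1 - a) * hpz
  have k1 : (0 : ℤ) ≤ (a : ℤ) * t - (e - 1) * (t - 1) := by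
    by_contra hneg
    rw [not_le] at hneg
    have : (e : ℤ) * ((a : ℤ) * t - (e - 1) * (t - 1)) < 0 :=
      mul_neg_of_pos_of_neg (by linarith) hneg
    linarith
  have hat : (a : ℤ) * (n + 1) ≤ e - 1 := by linarith
  have hapos : (0 : ℤ) < a := by
    rcases ha0.lt_or_eq with h | h
    · exact h
    · exfalso
      rw [← h] at k1
      have : (0 : ℤ) < ((e : ℤ) - 1) * (t - 1) := mul_pos (by linarith) (by linarith)
      linarith
  have k2 : (a : ℤ) * ((n + 1) * (t - 1)) ≤ a * t := by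
    have : (a : ℤ) * (n + 1) * (t - 1) ≤ (e - 1) * (t - 1) :=
      mul_le_mul_of_nonneg_right hat (by linarith)
    linarith
  have k3 : ((n : ℤ) + 1) * (t - 1) ≤ t := le_of_mul_le_mul_left k2 hapos
  have k4 : (t : ℤ) ≤ 2 := by nlinarith
  have ht2 : (t : ℤ) = 2 := le_antisymm k4 htz
  have hn1 : (n : ℤ) ≤ 1 := by
    rw [ht2] at k3
    linarith
  constructor
  · have : (n : ℤ) = 1 := le_antisymm hn1 hnz
    exact_mod_cast this
  · exact_mod_cast ht2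

theorem lin_aux {G : Type*} [Group G] (P : Subgroup G) [Fintype P] [DecidableEq P]
    (ψ : G → ℂ) :
    psum P ψ 1 = ψ 1 + ∑ u ∈ (Finset.univ : Finset P).erase 1, ψ (u : G) := by
  rw [Cfsg.Agent.Lib.Helper10.BR.psum_eq_sum,
    ← Finset.add_sum_erase _ _ (Finset.mem_univ (1 : P))]
  simp only [one_mul, Subgroup.coe_one]

theorem lin_const {G : Type*} [Group G] [Finite G] {P : Subgroup G} {p : ℕ}
    (hcard : Nat.card P = p) (ψ : G → ℂ) (c : ℂ)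
    (hc : ∀ x ∈ P, x ≠ 1 → ψ x = c) : psum P ψ 1 = ψ 1 + ((p - 1 : ℕ) : ℂ) * c := by
  classical
  let _ : Fintype P := Fintype.ofFinite P
  rw [lin_aux]
  congr 1
  have h5 : ∀ u ∈ (Finset.univ : Finset P).erase 1, ψ (u : G) = c := by
    intro u hu
    exact hc u u.2 (fun h1 => (Finset.ne_of_mem_erase hu) (OneMemClass.coe_eq_one.mp h1))
  rw [Finset.sum_congr rfl h5]
  rw [Finset.sum_const, Finset.card_erase_of_mem (Finset.mem_univ _), Finset.card_univ,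
    ← Nat.card_eq_fintype_card, hcard, nsmul_eq_mul]

end BTT3aux

section T

variable {G : Type*} [Group G] [Fintype G] {p e t n : ℕ} {P : Subgroup G} {ε : ℤ} {x₀ : ℕ}
  {A B Y D : Finset (IrrCharacter G)}

/-- BT-T3 -/
theorem cfgI_g (h : GTab G p e t n P ε x₀ A B Y D) (hε : ε = 1) (hx : x₀ = e)
    (ha : A.card * (n + 1) + 1 = e) (ht2 : 2 ≤ t)
    (hY : ∀ θ ∈ Y, psum P (θ : G → ℂ) 1 = 0 ∧
      psum P (fun g => (θ : G → ℂ) g * conj ((θ : G → ℂ) g)) 1 = ((e * p : ℕ) : ℂ)) :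
    n = 1 ∧ t = 2 := by
  classical
  have := Cfsg.Agent.Lib.Helper4.irr_finite (G := G)
  let _ : Fintype (IrrCharacter G) := Fintype.ofFinite _
  let _ : Fintype P := Fintype.ofFinite _
  have hp1 : 1 ≤ p := h.hp.one_lt.le
  -- the sums over `P`
  have hlinA : ∀ χ ∈ A, psum P (χ : G → ℂ) 1 = (((n + 1) * p : ℕ) : ℂ) := by
    intro χ hχ
    have hnat : 1 + n * p + (p - 1) = (n + 1) * p := by
      have : (n + 1) * p = n * p + p := by ring
      omega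
    rw [BTT3aux.lin_const h.cardP _ 1 (h.valA χ hχ), h.degA χ hχ, mul_one, ← Nat.cast_add, hnat]
  have hlinB : ∀ χ ∈ B, psum P (χ : G → ℂ) 1 = 0 := by
    intro χ hχ
    rw [BTT3aux.lin_const h.cardP _ (-1) (h.valB χ hχ), h.degB χ hχ]
    ring
  have hlinD : ∀ ψ ∈ D, psum P (ψ : G → ℂ) 1 = (ψ : G → ℂ) 1 := by
    intro ψ hψ
    rw [BTT3aux.lin_const h.cardP _ 0 (h.valD ψ hψ), mul_zero, add_zero]
  -- fix θ ∈ Y
  have hYne : Y.Nonempty := by
    rw [← Finset.card_pos, h.cardY]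
    omega
  obtain ⟨θ, hθ⟩ := hYne
  set φ : G → ℂ := fun g => (θ : G → ℂ) g * conj ((θ : G → ℂ) g) with hφ
  have hθc : IsCharacter G (θ : G → ℂ) := Cfsg.Agent.Lib.Helper35.isChar_of_irr θ.2
  have hφc : IsCharacter G φ :=
    Cfsg.Agent.Lib.Helper35.isCharacter_mul hθc (Cfsg.Agent.Lib.Helper4.isCharacter_conj _ hθc)
  obtain ⟨c, hc⟩ := Cfsg.Agent.Lib.Helper4.exists_decomp_of_isCharacter φ hφc
  -- c triv = 1
  have hc1 : c (trivIrr G) = 1 := by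
    have e1 : classInner φ (trivIrr G : G → ℂ) = (c (trivIrr G) : ℂ) := by
      rw [hc]
      exact Cfsg.Agent.Lib.Helper4.classInner_sum_irr (fun χ => (c χ : ℂ)) (trivIrr G)
    have e2 : classInner φ (trivIrr G : G → ℂ) = classInner (θ : G → ℂ) (θ : G → ℂ) := by
      unfold classInner
      congr 1
      refine Finset.sum_congr rfl fun g _ => ?_
      rw [Cfsg.Agent.Lib.Helper83.trivIrr_apply, map_one, mul_one]
    rw [e2, Cfsg.Agent.Lib.Helper4.classInner_irr, if_pos rfl] at e1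
    exact_mod_cast e1.symm
  -- pointwise decomposition
  have hval : ∀ g : G, φ g = ∑ χ : IrrCharacter G, (c χ : ℂ) * (χ : G → ℂ) g := by
    intro g
    have := congrFun hc g
    rw [this, Finset.sum_apply]
    rfl
  -- psum of the trivial character
  have hpt : psum P (trivIrr G : G → ℂ) 1 = (p : ℂ) := by
    rw [Cfsg.Agent.Lib.Helper10.BR.psum_eq_sum]
    simp only [Cfsg.Agent.Lib.Helper83.trivIrr_apply, Finset.sum_const, Finset.card_univ,
      nsmul_eq_mul, mul_one]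
    rw [← Nat.card_eq_fintype_card, h.cardP]
  -- psum is additive
  have hps : psum P φ 1 = ∑ χ : IrrCharacter G, (c χ : ℂ) * psum P (χ : G → ℂ) 1 := by
    rw [Cfsg.Agent.Lib.Helper10.BR.psum_eq_sum]
    simp only [hval]
    rw [Finset.sum_comm]
    refine Finset.sum_congr rfl fun χ _ => ?_
    rw [Cfsg.Agent.Lib.Helper10.BR.psum_eq_sum, Finset.mul_sum]
  obtain ⟨k, hk⟩ : ∃ k : IrrCharacter G → ℕ, ∀ ψ ∈ D, (ψ : G → ℂ) 1 = ((p * k ψ : ℕ) : ℂ) := by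
    have := h.degD
    choose! k hk using this
    exact ⟨k, hk⟩
  -- equation (1)
  have eq1 : e * p = p + (∑ χ ∈ A, c χ) * ((n + 1) * p) + p * ∑ ψ ∈ D, c ψ * k ψ := by
    have e1 : ((e * p : ℕ) : ℂ) = ∑ χ : IrrCharacter G, (c χ : ℂ) * psum P (χ : G → ℂ) 1 := by
      rw [← hps]; exact ((hY θ hθ).2).symm
    rw [h.sum_split, hc1, hpt] at e1
    have sA : ∑ χ ∈ A, (c χ : ℂ) * psum P (χ : G → ℂ) 1
        = ((∑ χ ∈ A, c χ : ℕ) : ℂ) * (((n + 1) * p : ℕ) : ℂ) := by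
      rw [Nat.cast_sum, Finset.sum_mul]
      exact Finset.sum_congr rfl fun χ hχ => by rw [hlinA χ hχ]
    have sB : ∑ χ ∈ B, (c χ : ℂ) * psum P (χ : G → ℂ) 1 = 0 :=
      Finset.sum_eq_zero fun χ hχ => by rw [hlinB χ hχ, mul_zero]
    have sY : ∑ χ ∈ Y, (c χ : ℂ) * psum P (χ : G → ℂ) 1 = 0 :=
      Finset.sum_eq_zero fun χ hχ => by rw [(hY χ hχ).1, mul_zero]
    have sD : ∑ ψ ∈ D, (c ψ : ℂ) * psum P (ψ : G → ℂ) 1
        = (p : ℂ) * ∑ ψ ∈ D, ((c ψ : ℂ) * (k ψ : ℂ)) := by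
      rw [Finset.mul_sum]
      refine Finset.sum_congr rfl fun ψ hψ => ?_
      rw [hlinD ψ hψ, hk ψ hψ]; push_cast; ring
    rw [sA, sB, sY, sD] at e1
    have e1' : ((e * p : ℕ) : ℂ)
        = ((p + (∑ χ ∈ A, c χ) * ((n + 1) * p) + p * ∑ ψ ∈ D, c ψ * k ψ : ℕ) : ℂ) := by
      rw [e1]; push_cast; ring
    exact_mod_cast e1'
  -- equation (2)
  have eq2 : e * e = 1 + (∑ χ ∈ A, c χ) * (1 + n * p) + (∑ χ ∈ B, c χ) * (p - 1)
      + (∑ χ ∈ Y, c χ) * e + p * ∑ ψ ∈ D, c ψ * k ψ := by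
    have e2 : φ 1 = ((e * e : ℕ) : ℂ) := by
      rw [hφ]
      simp only
      rw [h.degY θ hθ, hx]
      simp
    rw [hval 1, h.sum_split, hc1] at e2
    have sA : ∑ χ ∈ A, (c χ : ℂ) * (χ : G → ℂ) 1
        = ((∑ χ ∈ A, c χ : ℕ) : ℂ) * ((1 + n * p : ℕ) : ℂ) := by
      rw [Nat.cast_sum, Finset.sum_mul]
      exact Finset.sum_congr rfl fun χ hχ => by rw [h.degA χ hχ]
    have sB : ∑ χ ∈ B, (c χ : ℂ) * (χ : G → ℂ) 1
        = ((∑ χ ∈ B, c χ : ℕ) : ℂ) * ((p - 1 : ℕ) : ℂ) := by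
      rw [Nat.cast_sum, Finset.sum_mul]
      exact Finset.sum_congr rfl fun χ hχ => by rw [h.degB χ hχ]
    have sY : ∑ χ ∈ Y, (c χ : ℂ) * (χ : G → ℂ) 1
        = ((∑ χ ∈ Y, c χ : ℕ) : ℂ) * (e : ℂ) := by
      rw [Nat.cast_sum, Finset.sum_mul]
      exact Finset.sum_congr rfl fun χ hχ => by rw [h.degY χ hχ, hx]
    have sD : ∑ ψ ∈ D, (c ψ : ℂ) * (ψ : G → ℂ) 1
        = (p : ℂ) * ∑ ψ ∈ D, ((c ψ : ℂ) * (k ψ : ℂ)) := by
      rw [Finset.mul_sum]
      refine Finset.sum_congr rfl fun ψ hψ => ?_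
      rw [hk ψ hψ]; push_cast; ring
    rw [sA, sB, sY, sD, Cfsg.Agent.Lib.Helper83.trivIrr_apply] at e2
    have e2' : ((e * e : ℕ) : ℂ) = ((1 + (∑ χ ∈ A, c χ) * (1 + n * p)
        + (∑ χ ∈ B, c χ) * (p - 1) + (∑ χ ∈ Y, c χ) * e + p * ∑ ψ ∈ D, c ψ * k ψ : ℕ) : ℂ) := by
      rw [← e2]; push_cast; ring
    exact_mod_cast e2'
  exact BTT3aux.arith p e t n _ _ _ _ h.he ht2 h.hn h.het h.hp.two_le eq1 eq2

end T

end Cfsg.Agent.Lib.Helper10.BT
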