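import Cfsg.Agent.Lib.Helper80.BaerDefs

/-!
# Piece P13a for S4125: internal form of Lemma X, relative to the abstract Lemma X

`lemmaX_internal_of` takes the statement of Lemma X (for the universe of `G`) as a hypothesis.
-/

set_option autoImplicit false

namespace Cfsg.Agent.Lib.Helper35

open Cfsg.Agent.Lib.Helper80

universe u

theorem lemmaX_internal_of {G : Type u} [Group G] [Finite G] (p : ℕ) [Fact p.Prime]
    (hX : ∀ (H V : Type u) [Group H] [Finite H] [AddCommGroup V] [Finite V]
      [DistribMulAction H V], BaerAct p H V → Group.IsSolvable H)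
    (A : Subgroup G) [A.Normal] (hA : IsMulCommutative A)
    (hcop : (Nat.card A).Coprime A.index) (hC : Subgroup.centralizer (A : Set G) ≤ A)
    (ho : ∀ a ∈ A, ∃ k : ℕ, (Subgroup.centralizer ({a} : Set G)).index = p ^ k) :
    Group.IsSolvable G := by
  have hcomm : ∀ a b : A, a * b = b * a := fun a b => hA.is_comm.comm a b
  let _ : CommGroup A := { (inferInstance : Group A) with mul_comm := hcomm }
  let ψ : G →* MulAut A := MulAut.conjNormal
  have hψ : ∀ (g : G) (a : A), ((ψ g a : A) : G) = g * a * g⁻¹ :=
    fun g a => MulAut.conjNormal_apply g a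
  let _ : DistribMulAction ψ.range (Additive A) :=
    { smul := fun h v => Additive.ofMul ((h : MulAut A) (Additive.toMul v))
      one_smul := fun v => rfl
      mul_smul := fun h h' v => rfl
      smul_zero := fun h => congrArg Additive.ofMul (map_one (h : MulAut A))
      smul_add := fun h v w =>
        congrArg Additive.ofMul (map_mul (h : MulAut A) (Additive.toMul v) (Additive.toMul w)) }
  have hsmul : ∀ (h : ψ.range) (v : Additive A),
      h • v = Additive.ofMul ((h : MulAut A) (Additive.toMul v)) := fun h v => rfl
  -- the kernel of `ψ`
  have hker : ψ.ker ≤ A := by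
    intro g hg
    apply hC
    rw [Subgroup.mem_centralizer_iff]
    intro a ha
    have h1 : ψ g = 1 := hg
    have h2 := hψ g ⟨a, ha⟩
    rw [h1] at h2
    have h3 : a = g * a * g⁻¹ := h2
    calc a * g = g * a * g⁻¹ * g := by rw [← h3]
      _ = g * a := by group
  have hAker : A ≤ ψ.ker := by
    intro g hg
    rw [MonoidHom.mem_ker]
    ext a
    rw [hψ]
    have h1 := hcomm ⟨g, hg⟩ a
    have h2 : g * (a : G) = a * g := congrArg Subtype.val h1
    rw [h2]
    simp
  have hB : BaerAct p ψ.range (Additive A) := by
    refine ⟨?_, ?_, ?_⟩
    · intro h hh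
      apply Subtype.ext
      ext a
      have h1 := hh (Additive.ofMul a)
      rw [hsmul] at h1
      have h2 : (h : MulAut A) a = a := Additive.ofMul.injective h1
      rw [h2]
      rfl
    · have h1 : Nat.card ψ.range = ψ.ker.index := by
        rw [Subgroup.index]
        exact Nat.card_congr (QuotientGroup.quotientKerEquivRange ψ).symm.toEquiv
      have h2 : ψ.ker.index ∣ A.index := Subgroup.index_dvd_of_le hAker
      have h3 : Nat.card (Additive A) = Nat.card A := rfl
      rw [h1, h3]
      exact (Nat.Coprime.coprime_dvd_right h2 hcop).symm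
    · intro v
      obtain ⟨k, hk⟩ := ho (Additive.toMul v : A) (Additive.toMul v : A).2
      refine ⟨k, ?_⟩
      rw [← hk, ← Subgroup.index_comap_of_surjective (MulAction.stabilizer ψ.range v)
        ψ.rangeRestrict_surjective]
      congr 1
      ext g
      rw [Subgroup.mem_comap, MulAction.mem_stabilizer_iff, hsmul, Subgroup.mem_centralizer_iff]
      constructor
      · intro h x hx
        rw [Set.mem_singleton_iff] at hx
        subst hx
        have h1 : (ψ g) (Additive.toMul v) = Additive.toMul v := Additive.ofMul.injective h
        have h2 := hψ g (Additive.toMul v)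
        rw [h1] at h2
        calc ((Additive.toMul v : A) : G) * g = g * (Additive.toMul v : A) * g⁻¹ * g := by
              rw [← h2]
          _ = g * (Additive.toMul v : A) := by group
      · intro h
        have h1 := h (Additive.toMul v : A) rfl
        apply congrArg Additive.ofMul
        apply Subtype.ext
        show ((ψ g (Additive.toMul v) : A) : G) = ((Additive.toMul v : A) : G)
        rw [hψ, ← h1]
        group
  have hfin : Finite (Additive A) := inferInstanceAs (Finite A)
  have hsolH : Group.IsSolvable ψ.range := hX ψ.range (Additive A) hB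
  have hsolA : Group.IsSolvable A := Group.isSolvable_of_comm hcomm
  refine Group.isSolvable_of_ker_le_range A.subtype ψ.rangeRestrict ?_
  rw [MonoidHom.ker_rangeRestrict, Subgroup.range_subtype]
  exact hker

end Cfsg.Agent.Lib.Helper35
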