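import Mathlib
import Cfsg.Agent.Lib.Helper81.OSum
import Cfsg.Agent.Lib.Helper51.DicksonTwo
import Cfsg.Agent.Lib.Helper52.OmegaGeom

/-!
# OMEGA-SYL piece ISOP, core (helper35)

`iso_plus_of`: the statement `iso_plus` of the skeleton with its two dependencies (`std_even`
for `W`, `gram_det_transport` for `W`) as explicit hypotheses.
-/

set_option autoImplicit false

namespace Cfsg.Agent.Lib.Helper35.OmegaISOP

open Cfsg Cfsg.Agent.Lib.Helper51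

variable {ι : Type} [Fintype ι] [DecidableEq ι] {F : Type*} [Field F] [Fintype F]

theorem iso_plus_of (h2 : (2 : F) ≠ 0) (W : QuadraticForm F (ι → F))
    (hW : (QuadraticMap.polarBilin W).Nondegenerate) (m : ℕ) (hm : 1 ≤ m)
    (hc : Fintype.card ι = 2 * m) (hd : IsSquare ((-1) ^ m * (gram W).det))
    (hstd : (∃ L : (ι → F) ≃ₗ[F] (Fin m ⊕ Fin m → F), ∀ v, quadFormPlus m F (L v) = W v) ∨
      (∃ (L : (ι → F) ≃ₗ[F] ((Fin (m - 1) ⊕ Fin (m - 1)) ⊕ Fin 2 → F)) (ζ : F),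
        (∀ t : F, t ^ 2 + t + ζ ≠ 0) ∧ ∀ v, quadFormMinus (m - 1) F 1 ζ (L v) = W v))
    (hgt : ∀ (Q₂ : QuadraticForm F ((Fin (m - 1) ⊕ Fin (m - 1)) ⊕ Fin 2 → F))
      (L : (ι → F) ≃ₗ[F] ((Fin (m - 1) ⊕ Fin (m - 1)) ⊕ Fin 2 → F)),
      (∀ v, Q₂ (L v) = W v) → ∃ c : F, c ≠ 0 ∧ (gram W).det = c ^ 2 * (gram Q₂).det) :
    ∃ L : (ι → F) ≃ₗ[F] (Fin m ⊕ Fin m → F), ∀ v, quadFormPlus m F (L v) = W v := by
  rcases hstd with h | ⟨L, ζ, hζ, hL⟩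
  · exact h
  · exfalso
    obtain ⟨c, hc0, hdet⟩ := hgt (QMinus (m - 1) F 1 ζ) L (fun v => by rw [coe_QMinus]; exact hL v)
    rw [det_gram_QMinus] at hdet
    obtain ⟨s, hs⟩ := hd
    obtain ⟨k, rfl⟩ : ∃ k, m = k + 1 := ⟨m - 1, by omega⟩
    simp only [Nat.add_sub_cancel] at hdet
    rw [hdet] at hs
    have h4 : (4 : F) ≠ 0 := by
      have : (4 : F) = 2 * 2 := by norm_num
      rw [this]; exact mul_ne_zero h2 h2
    have hk : ((-1 : F) ^ k) ^ 2 = 1 := by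
      rw [← pow_mul, mul_comm, pow_mul]; norm_num
    -- `c² (1 - 4ζ) = s²`
    have h5 : c ^ 2 * (1 - 4 * ζ) = s ^ 2 := by
      have : (-1 : F) ^ (k + 1) * (c ^ 2 * ((-1) ^ k * (4 * ζ - 1 ^ 2))) =
          ((-1 : F) ^ k) ^ 2 * (c ^ 2 * (1 - 4 * ζ)) := by ring
      rw [this, hk, one_mul] at hs
      rw [hs]; ring
    apply hζ ((s / c - 1) / 2)
    have h6 : (s / c) ^ 2 = 1 - 4 * ζ := by
      rw [div_pow, ← h5]
      field_simp
    have h7 : ((s / c - 1) / 2) ^ 2 + (s / c - 1) / 2 + ζ = ((s / c) ^ 2 - (1 - 4 * ζ)) / 4 := by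
      field_simp
      ring
    rw [h7, h6, sub_self, zero_div]

end Cfsg.Agent.Lib.Helper35.OmegaISOP
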