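import Mathlib
import Cfsg.Agent.Lib.Helper93.Sl3Defs
import Cfsg.Agent.Lib.Helper93.PresCore

/-!
# S2287 piece MATA (helper35): `mat_basic`
-/

set_option autoImplicit false

namespace Cfsg.Agent.Lib.Helper93.Sl3

open Polynomial Matrix

variable {F : Type*} [Field F]

/-- `g = diag(1, ζ, ζ⁻¹)` -/
def h35_mG (ζ : F) (hζ : ζ ≠ 0) : SpecialLinearGroup (Fin 3) F :=
  ⟨!![1, 0, 0; 0, ζ, 0; 0, 0, ζ⁻¹], by simp [det_fin_three, hζ]⟩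

theorem h35_mG_val (ζ : F) (hζ : ζ ≠ 0) :
    (h35_mG ζ hζ).1 = !![1, 0, 0; 0, ζ, 0; 0, 0, ζ⁻¹] := rfl

theorem h35_gC_eq (ζ : F) (hζ0 : ζ ≠ 0) : gC (mH ζ hζ0) (mC F) = h35_mG ζ hζ0 := by
  have h1 : h35_mG ζ hζ0 * mC F * mH ζ hζ0 = mC F := by
    apply Subtype.ext
    show (h35_mG ζ hζ0).1 * (mC F).1 * (mH ζ hζ0).1 = (mC F).1
    rw [h35_mG_val, mC_val, mH_val]
    ext i j
    fin_cases i <;> fin_cases j <;>
      simp [Matrix.mul_apply, Fin.sum_univ_three, hζ0]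
  unfold gC
  rw [eq_comm, eq_mul_inv_iff_mul_eq, eq_mul_inv_iff_mul_eq]
  exact h1

theorem h35_mX_add (a b : F) : mX (a + b) = mX a * mX b := by
  apply Subtype.ext
  show (mX (a + b)).1 = (mX a).1 * (mX b).1
  rw [mX_val, mX_val, mX_val]
  ext i j
  fin_cases i <;> fin_cases j <;>
    simp [Matrix.mul_apply, Fin.sum_univ_three, add_comm]

theorem h35_g_conj (ζ : F) (hζ0 : ζ ≠ 0) (a : F) :
    (gC (mH ζ hζ0) (mC F))⁻¹ * mX a * gC (mH ζ hζ0) (mC F) = mX (ζ * a) := by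
  rw [h35_gC_eq, mul_assoc, inv_mul_eq_iff_eq_mul]
  apply Subtype.ext
  show (mX a).1 * (h35_mG ζ hζ0).1 = (h35_mG ζ hζ0).1 * (mX (ζ * a)).1
  rw [h35_mG_val, mX_val, mX_val]
  ext i j
  fin_cases i <;> fin_cases j <;>
    simp [Matrix.mul_apply, Fin.sum_univ_three, mul_comm]

/-- MATA -/
theorem mat_basic (ζ : F) (hζ0 : ζ ≠ 0) :
    (∀ a b : F, mX (a + b) = mX a * mX b) ∧
    (∀ a : F, (gC (mH ζ hζ0) (mC F))⁻¹ * mX a * gC (mH ζ hζ0) (mC F) = mX (ζ * a)) ∧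
    (∀ i : ℕ, Pres.aC (mX (1 : F)) (gC (mH ζ hζ0) (mC F)) i = mX (ζ ^ i)) := by
  refine ⟨h35_mX_add, h35_g_conj ζ hζ0, ?_⟩
  intro i
  induction i with
  | zero => rw [Pres.aC_zero, pow_zero]
  | succ i ih => rw [Pres.aC_succ, ih, h35_g_conj, pow_succ, mul_comm]

end Cfsg.Agent.Lib.Helper93.Sl3
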